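import Mathlib
import Cfsg.Agent.LeU.U33.Main
import Cfsg.Agent.Schur.Mx
import Cfsg.Agent.S0280

set_option autoImplicit false
set_option maxRecDepth 100000

namespace Cfsg.Agent.LeU.U33
open Cfsg.Agent.Comp Cfsg.Agent.Schur Matrix

def I : List Nat := [nat_lit 1, nat_lit 32, nat_lit 1024, nat_lit 32768, nat_lit 1048576, nat_lit 33554432]

def C : List Nat := [nat_lit 1, nat_lit 32, nat_lit 1024]

def O : List Nat := [nat_lit 32768, nat_lit 1048576, nat_lit 33554432, nat_lit 2, nat_lit 64, nat_lit 2048]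

def en : Fin 3 → ℕ := Fin.val

def bs : List (Fin 3 → K9) := (List.finRange 3).map (fun j => Pi.single j 1) ++ (List.finRange 3).map (fun j => Pi.single j w9)

theorem ms : MS (nat_lit 3) (nat_lit 5) (nat_lit 31) (nat_lit 3) I C O bs en (w9 : K9) :=
  ⟨by decide +kernel, by decide +kernel, by decide +kernel, by decide +kernel, by decide +kernel⟩

def M : List (List Nat) :=
  [[nat_lit 32768, nat_lit 64, nat_lit 33554432, nat_lit 2, nat_lit 2097152, nat_lit 2048],
   [nat_lit 65536, nat_lit 64, nat_lit 67108864, nat_lit 1, nat_lit 2097152, nat_lit 1024],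
   [nat_lit 1, nat_lit 2097152, nat_lit 33554432, nat_lit 32768, nat_lit 32, nat_lit 2048],
   [nat_lit 1, nat_lit 1048576, nat_lit 67108864, nat_lit 32768, nat_lit 64, nat_lit 1024],
   [nat_lit 1081377, nat_lit 2129954, nat_lit 1024, nat_lit 1081410, nat_lit 1114146, nat_lit 33554432],
   [nat_lit 2162753, nat_lit 1114145, nat_lit 1024, nat_lit 2129953, nat_lit 1081409, nat_lit 33554432],
   [nat_lit 69208096, nat_lit 33587233, nat_lit 2130946, nat_lit 68158496, nat_lit 1083394, nat_lit 33620002],
   [nat_lit 1, nat_lit 32, nat_lit 1024, nat_lit 32768, nat_lit 1048576, nat_lit 33554432]]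

theorem Mok : MOK (nat_lit 3) (nat_lit 5) bs en M := ms.mok (by decide +kernel)

/-- the matrices of the letters -/
def Mm : ℕ → Matrix (Fin 3) (Fin 3) K9 := mat (nat_lit 5) bs en M

def Zs : List (List Nat) := [[], [], [], [], [], [], [], [], [], [], [], [], [], [], []]

theorem eqsM : ∀ e ∈ (R.zip Zs), ev Mm e.1 = ev Mm e.2 := ms.eqs Mok (by decide +kernel)

theorem dets : ∀ x < 7, (Mm x).det = 1 := (by decide +kernel)

theorem unit : ∀ x < 7, ∀ i j, ∑ l, Mm x l i * Mm x l j ^ 3 = if i = j then 1 else 0 := by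
  decide +kernel

theorem exists_iso (F : Type*) [Field F] [Fintype F] (hF : Fintype.card F = 9) :
    Nonempty (G ≃* PSU 3 F 3) := by
  obtain ⟨e⟩ := exists_emb K9 F card_K9 hF
  have := simple
  have : CharP F 3 := Classical.Congr.charP_of_card (k := 2) (by simp [hF])
  refine equiv_quot pres hR ((slToMat_injective 3).comp Subtype.val_injective) e.injective
    (fun x hx => mem_su e 3 (k := 1) rfl (dets x hx) (unit x hx)) eqsM (c := 1)
    (a := 0) (b := 4) (by decide +kernel) (by decide +kernel) (by decide +kernel) ?_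
  have h := S0280.result (q := 3) hF 3 (by norm_num)
  rw [card.2.1]
  simp [Finset.prod_range_succ] at h
  change Nat.card (PSU 3 F 3) ≤ _
  omega

end Cfsg.Agent.LeU.U33
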